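import Mathlib

/-!
# S5719, symplectic groups, `q` odd: isometry groups of alternating forms (helper17)

`Sp B` : isometry group of the form `B`; `Fund B z` : `z = -1` on a hyperbolic plane, `1` on its perpendicular space;
`HB B` : the form on `F × F × W`.
-/

set_option autoImplicit false

namespace Cfsg.Agent.H17.IFSp

open Module

variable {F : Type*} [Field F] {V : Type*} [AddCommGroup V] [Module F V]

/-- the isometry group -/
def Sp (B : LinearMap.BilinForm F V) : Subgroup (V ≃ₗ[F] V) where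
  carrier := {g | ∀ x y, B (g x) (g y) = B x y}
  one_mem' := fun x y => rfl
  mul_mem' := by
    intro a b ha hb x y
    show B (a (b x)) (a (b y)) = B x y
    rw [ha, hb]
  inv_mem' := by
    intro a ha x y
    have h := ha (a⁻¹ x) (a⁻¹ y)
    have e : ∀ z, a (a⁻¹ z) = z := fun z => LinearEquiv.apply_symm_apply a z
    rw [e, e] at h
    exact h.symm

theorem mem_Sp {B : LinearMap.BilinForm F V} {g : V ≃ₗ[F] V} : g ∈ Sp B ↔ ∀ x y, B (g x) (g y) = B x y := Iff.rfl

theorem Sp.isom {B : LinearMap.BilinForm F V} (g : Sp B) (x y : V) : B (g.1 x) (g.1 y) = B x y := g.2 x y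

theorem Sp.ext {B : LinearMap.BilinForm F V} {g h : Sp B} (H : ∀ x, g.1 x = h.1 x) : g = h :=
  Subtype.ext (LinearEquiv.ext H)

theorem Sp.mul_apply {B : LinearMap.BilinForm F V} (g h : Sp B) (x : V) : (g * h).1 x = g.1 (h.1 x) := rfl

theorem Sp.one_apply {B : LinearMap.BilinForm F V} (x : V) : (1 : Sp B).1 x = x := rfl

theorem Sp.apply_inv {B : LinearMap.BilinForm F V} (g : Sp B) (x : V) : g.1 ((g⁻¹).1 x) = x :=
  LinearEquiv.apply_symm_apply g.1 x

theorem Sp.inv_apply {B : LinearMap.BilinForm F V} (g : Sp B) (x : V) : (g⁻¹).1 (g.1 x) = x :=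
  LinearEquiv.symm_apply_apply g.1 x

/-- nondegenerate -/
def ND (B : LinearMap.BilinForm F V) : Prop := ∀ x, (∀ y, B x y = 0) → x = 0

/-- `z = -1` on the hyperbolic plane `⟨e, f⟩` and `1` on its perpendicular space -/
def FundAt (B : LinearMap.BilinForm F V) (e f : V) (z : Sp B) : Prop :=
  B e f = 1 ∧ ∀ x, z.1 x = x - (2 * B x f) • e + (2 * B x e) • f

/-- fundamental involution -/
def Fund (B : LinearMap.BilinForm F V) (z : Sp B) : Prop := ∃ e f : V, FundAt B e f z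

theorem alt_neg {B : LinearMap.BilinForm F V} (hB : B.IsAlt) (x y : V) : B x y = - B y x := (hB.neg_eq y x).symm

theorem FundAt.sq {B : LinearMap.BilinForm F V} (hB : B.IsAlt) {e f : V} {z : Sp B} (h : FundAt B e f z) :
    z * z = 1 := by
  obtain ⟨hef, hz⟩ := h
  have hee : B e e = 0 := hB e
  have hff : B f f = 0 := hB f
  have hfe : B f e = -1 := by rw [alt_neg hB, hef]
  apply Sp.ext
  intro x
  rw [Sp.mul_apply, Sp.one_apply, hz (z.1 x), hz x]
  simp only [map_add, map_sub, map_smul, LinearMap.add_apply, LinearMap.sub_apply, LinearMap.smul_apply, smul_eq_mul,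
    hee, hff, hef, hfe]
  module

theorem Fund.sq {B : LinearMap.BilinForm F V} (hB : B.IsAlt) {z : Sp B} (h : Fund B z) : z * z = 1 := by
  obtain ⟨e, f, h⟩ := h
  exact h.sq hB

theorem FundAt.conj {B : LinearMap.BilinForm F V} {e f : V} {z : Sp B} (h : FundAt B e f z) (g : Sp B) :
    FundAt B (g.1 e) (g.1 f) (g * z * g⁻¹) := by
  obtain ⟨hef, hz⟩ := h
  refine ⟨by rw [Sp.isom g, hef], ?_⟩
  intro x
  rw [Sp.mul_apply, Sp.mul_apply, hz, map_add, map_sub, map_smul, map_smul, Sp.apply_inv]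
  have h1 : ∀ y, B ((g⁻¹).1 x) y = B x (g.1 y) := by
    intro y
    rw [← Sp.isom g, Sp.apply_inv]
  rw [h1, h1]

theorem Fund.conj {B : LinearMap.BilinForm F V} {z : Sp B} (h : Fund B z) (g : Sp B) : Fund B (g * z * g⁻¹) := by
  obtain ⟨e, f, h⟩ := h
  exact ⟨_, _, h.conj g⟩

/-! ### Isometries -/

section Iso

variable {V' : Type*} [AddCommGroup V'] [Module F V']

/-- an isometry between two spaces -/
def IsoF (B : LinearMap.BilinForm F V) (B' : LinearMap.BilinForm F V') (φ : V ≃ₗ[F] V') : Prop :=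
  ∀ x y, B' (φ x) (φ y) = B x y

/-- transport of the isometry group -/
def spCongr {B : LinearMap.BilinForm F V} {B' : LinearMap.BilinForm F V'} {φ : V ≃ₗ[F] V'} (h : IsoF B B' φ) :
    Sp B ≃* Sp B' where
  toFun g := ⟨(φ.symm.trans g.1).trans φ, by
    intro x y
    show B' (φ (g.1 (φ.symm x))) (φ (g.1 (φ.symm y))) = B' x y
    rw [h, Sp.isom g, ← h, φ.apply_symm_apply, φ.apply_symm_apply]⟩
  invFun g := ⟨(φ.trans g.1).trans φ.symm, by
    intro x y
    show B (φ.symm (g.1 (φ x))) (φ.symm (g.1 (φ y))) = B x y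
    rw [← h, φ.apply_symm_apply, φ.apply_symm_apply, Sp.isom g, h]⟩
  left_inv g := Sp.ext fun x => by
    show φ.symm (φ (g.1 (φ.symm (φ x)))) = g.1 x
    rw [φ.symm_apply_apply, φ.symm_apply_apply]
  right_inv g := Sp.ext fun x => by
    show φ (φ.symm (g.1 (φ (φ.symm x)))) = g.1 x
    rw [φ.apply_symm_apply, φ.apply_symm_apply]
  map_mul' g k := Sp.ext fun x => by
    show φ (g.1 (k.1 (φ.symm x))) = φ (g.1 (φ.symm (φ (k.1 (φ.symm x)))))
    rw [φ.symm_apply_apply]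

theorem spCongr_apply {B : LinearMap.BilinForm F V} {B' : LinearMap.BilinForm F V'} {φ : V ≃ₗ[F] V'} (h : IsoF B B' φ)
    (g : Sp B) (x : V) : (spCongr h g).1 (φ x) = φ (g.1 x) := by
  show φ (g.1 (φ.symm (φ x))) = φ (g.1 x)
  rw [φ.symm_apply_apply]

theorem fund_congr {B : LinearMap.BilinForm F V} {B' : LinearMap.BilinForm F V'} {φ : V ≃ₗ[F] V'} (h : IsoF B B' φ)
    {z : Sp B} (hz : Fund B z) : Fund B' (spCongr h z) := by
  obtain ⟨e, f, hef, hz⟩ := hz
  refine ⟨φ e, φ f, by rw [h, hef], ?_⟩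
  intro x
  obtain ⟨x, rfl⟩ := φ.surjective x
  rw [spCongr_apply, hz, map_add, map_sub, map_smul, map_smul, h, h]

theorem IsoF.symm {B : LinearMap.BilinForm F V} {B' : LinearMap.BilinForm F V'} {φ : V ≃ₗ[F] V'} (h : IsoF B B' φ) :
    IsoF B' B φ.symm := by
  intro x y
  rw [← h, φ.apply_symm_apply, φ.apply_symm_apply]

theorem spCongr_symm {B : LinearMap.BilinForm F V} {B' : LinearMap.BilinForm F V'} {φ : V ≃ₗ[F] V'} (h : IsoF B B' φ)
    (g : Sp B') : (spCongr h).symm g = spCongr h.symm g := rfl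

theorem fund_congr' {B : LinearMap.BilinForm F V} {B' : LinearMap.BilinForm F V'} {φ : V ≃ₗ[F] V'} (h : IsoF B B' φ)
    {z : Sp B} (hz : Fund B' (spCongr h z)) : Fund B z := by
  have h1 := fund_congr h.symm hz
  rwa [← spCongr_symm h, MulEquiv.symm_apply_apply] at h1

end Iso

/-! ### The model `F × F × W` -/

section Model

variable {W : Type*} [AddCommGroup W] [Module F W] (B : LinearMap.BilinForm F W)

/-- the form on `F × F × W` -/
def HB : LinearMap.BilinForm F (F × F × W) :=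
  LinearMap.mk₂ F (fun x y => x.1 * y.2.1 - x.2.1 * y.1 + B x.2.2 y.2.2)
    (by intro x y z; simp only [Prod.fst_add, Prod.snd_add, map_add, LinearMap.add_apply]; ring)
    (by intro c x y; simp only [Prod.smul_fst, Prod.smul_snd, map_smul, LinearMap.smul_apply, smul_eq_mul]; ring)
    (by intro x y z; simp only [Prod.fst_add, Prod.snd_add, map_add]; ring)
    (by intro c x y; simp only [Prod.smul_fst, Prod.smul_snd, map_smul, smul_eq_mul]; ring)

theorem HB_apply (x y : F × F × W) : HB B x y = x.1 * y.2.1 - x.2.1 * y.1 + B x.2.2 y.2.2 := rfl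

theorem HB_mk (a b a' b' : F) (w w' : W) : HB B (a, b, w) (a', b', w') = a * b' - b * a' + B w w' := rfl

variable {B}

theorem HB_alt (hB : B.IsAlt) : (HB B).IsAlt := by
  intro x
  have h : B x.2.2 x.2.2 = 0 := hB _
  rw [HB_apply, h]
  ring

/-- Levi embedding -/
def lev : Sp B →* Sp (HB B) where
  toFun g := ⟨(LinearEquiv.refl F F).prodCongr ((LinearEquiv.refl F F).prodCongr g.1), by
    rintro ⟨a, b, w⟩ ⟨a', b', w'⟩
    show HB B (a, b, g.1 w) (a', b', g.1 w') = HB B (a, b, w) (a', b', w')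
    rw [HB_mk, HB_mk, Sp.isom g]⟩
  map_one' := Sp.ext fun _ => rfl
  map_mul' g h := Sp.ext fun _ => rfl

theorem lev_apply (g : Sp B) (a b : F) (w : W) : (lev g).1 (a, b, w) = (a, b, g.1 w) := rfl

theorem lev_inj : Function.Injective (lev (B := B)) := by
  intro g h hgh
  apply Sp.ext
  intro x
  have h1 : (lev g).1 (0, 0, x) = (lev h).1 (0, 0, x) := by rw [hgh]
  rw [lev_apply, lev_apply] at h1
  exact congrArg (fun t => t.2.2) h1

theorem fund_lev {z : Sp B} (hz : Fund B z) : Fund (HB B) (lev z) := by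
  obtain ⟨e, f, hef, hz⟩ := hz
  refine ⟨(0, 0, e), (0, 0, f), by rw [HB_mk, hef]; ring, ?_⟩
  rintro ⟨a, b, w⟩
  rw [lev_apply, hz, HB_mk, HB_mk]
  simp only [Prod.smul_mk, smul_eq_mul, Prod.mk_sub_mk, Prod.mk_add_mk, mul_zero, sub_zero, add_zero, zero_add]

/-- `SL₂(F)` on the hyperbolic plane -/
def slH : Matrix.SpecialLinearGroup (Fin 2) F →* Sp (HB B) where
  toFun g := ⟨{
      toFun := fun x => (g.1 0 0 * x.1 + g.1 0 1 * x.2.1, g.1 1 0 * x.1 + g.1 1 1 * x.2.1, x.2.2)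
      map_add' := by
        intro x y
        simp only [Prod.fst_add, Prod.snd_add, Prod.mk_add_mk]
        refine Prod.ext ?_ (Prod.ext ?_ rfl) <;> ring
      map_smul' := by
        intro c x
        simp only [Prod.smul_fst, Prod.smul_snd, smul_eq_mul, RingHom.id_apply, Prod.smul_mk]
        refine Prod.ext ?_ (Prod.ext ?_ rfl) <;> ring
      invFun := fun x => (g.1 1 1 * x.1 - g.1 0 1 * x.2.1, - g.1 1 0 * x.1 + g.1 0 0 * x.2.1, x.2.2)
      left_inv := by
        intro x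
        have h := g.2
        rw [Matrix.det_fin_two] at h
        refine Prod.ext ?_ (Prod.ext ?_ rfl)
        · show g.1 1 1 * (g.1 0 0 * x.1 + g.1 0 1 * x.2.1) - g.1 0 1 * (g.1 1 0 * x.1 + g.1 1 1 * x.2.1) = x.1
          linear_combination x.1 * h
        · show - g.1 1 0 * (g.1 0 0 * x.1 + g.1 0 1 * x.2.1) + g.1 0 0 * (g.1 1 0 * x.1 + g.1 1 1 * x.2.1) = x.2.1
          linear_combination x.2.1 * h
      right_inv := by
        intro x
        have h := g.2
        rw [Matrix.det_fin_two] at h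
        refine Prod.ext ?_ (Prod.ext ?_ rfl)
        · show g.1 0 0 * (g.1 1 1 * x.1 - g.1 0 1 * x.2.1) + g.1 0 1 * (- g.1 1 0 * x.1 + g.1 0 0 * x.2.1) = x.1
          linear_combination x.1 * h
        · show g.1 1 0 * (g.1 1 1 * x.1 - g.1 0 1 * x.2.1) + g.1 1 1 * (- g.1 1 0 * x.1 + g.1 0 0 * x.2.1) = x.2.1
          linear_combination x.2.1 * h }, by
    intro x y
    have h := g.2
    rw [Matrix.det_fin_two] at h
    show (g.1 0 0 * x.1 + g.1 0 1 * x.2.1) * (g.1 1 0 * y.1 + g.1 1 1 * y.2.1) -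
      (g.1 1 0 * x.1 + g.1 1 1 * x.2.1) * (g.1 0 0 * y.1 + g.1 0 1 * y.2.1) + B x.2.2 y.2.2 =
      x.1 * y.2.1 - x.2.1 * y.1 + B x.2.2 y.2.2
    linear_combination (x.1 * y.2.1 - x.2.1 * y.1) * h⟩
  map_one' := Sp.ext fun x => by
    show ((1 : Matrix (Fin 2) (Fin 2) F) 0 0 * x.1 + (1 : Matrix (Fin 2) (Fin 2) F) 0 1 * x.2.1,
      (1 : Matrix (Fin 2) (Fin 2) F) 1 0 * x.1 + (1 : Matrix (Fin 2) (Fin 2) F) 1 1 * x.2.1, x.2.2) = x
    simp
  map_mul' g h := Sp.ext fun x => by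
    show ((g.1 * h.1) 0 0 * x.1 + (g.1 * h.1) 0 1 * x.2.1, (g.1 * h.1) 1 0 * x.1 + (g.1 * h.1) 1 1 * x.2.1, x.2.2) =
      (g.1 0 0 * (h.1 0 0 * x.1 + h.1 0 1 * x.2.1) + g.1 0 1 * (h.1 1 0 * x.1 + h.1 1 1 * x.2.1),
       g.1 1 0 * (h.1 0 0 * x.1 + h.1 0 1 * x.2.1) + g.1 1 1 * (h.1 1 0 * x.1 + h.1 1 1 * x.2.1), x.2.2)
    simp only [Matrix.mul_apply, Fin.sum_univ_two]
    refine Prod.ext ?_ (Prod.ext ?_ rfl) <;> ring

theorem slH_apply (g : Matrix.SpecialLinearGroup (Fin 2) F) (a b : F) (w : W) :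
    (slH (B := B) g).1 (a, b, w) = (g.1 0 0 * a + g.1 0 1 * b, g.1 1 0 * a + g.1 1 1 * b, w) := rfl

theorem fund_slH : Fund (HB B) (slH (-1)) := by
  refine ⟨(1, 0, 0), (0, 1, 0), by rw [HB_mk, map_zero]; simp, ?_⟩
  rintro ⟨a, b, w⟩
  rw [slH_apply, HB_mk, HB_mk]
  have h1 : ((-1 : Matrix.SpecialLinearGroup (Fin 2) F)).1 = -1 := rfl
  simp only [h1, Matrix.neg_apply, Matrix.one_apply_eq, ne_eq, zero_ne_one, not_false_eq_true, Matrix.one_apply_ne,
    one_ne_zero, map_zero, Prod.smul_mk, smul_eq_mul, Prod.mk_sub_mk, Prod.mk_add_mk, smul_zero]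
  refine Prod.ext ?_ (Prod.ext ?_ ?_) <;> simp <;> ring

/-- the elements of `Q_e` -/
def qe (hB : B.IsAlt) (c : F) (u : W) : Sp (HB B) :=
  ⟨{  toFun := fun x => (x.1 + c * x.2.1 + B u x.2.2, x.2.1, x.2.2 + x.2.1 • u)
      map_add' := by
        intro x y
        simp only [Prod.fst_add, Prod.snd_add, Prod.mk_add_mk, map_add]
        refine Prod.ext ?_ (Prod.ext rfl ?_)
        · ring
        · show x.2.2 + y.2.2 + (x.2.1 + y.2.1) • u = x.2.2 + x.2.1 • u + (y.2.2 + y.2.1 • u)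
          module
      map_smul' := by
        intro t x
        simp only [Prod.smul_fst, Prod.smul_snd, smul_eq_mul, RingHom.id_apply, Prod.smul_mk, map_smul]
        refine Prod.ext ?_ (Prod.ext rfl ?_)
        · ring
        · show t • x.2.2 + (t * x.2.1) • u = t • (x.2.2 + x.2.1 • u)
          module
      invFun := fun x => (x.1 - c * x.2.1 - B u x.2.2, x.2.1, x.2.2 - x.2.1 • u)
      left_inv := by
        intro x
        have h : B u u = 0 := hB u
        refine Prod.ext ?_ (Prod.ext rfl ?_)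
        · show x.1 + c * x.2.1 + B u x.2.2 - c * x.2.1 - B u (x.2.2 + x.2.1 • u) = x.1
          rw [map_add, map_smul, h, smul_zero]
          ring
        · show x.2.2 + x.2.1 • u - x.2.1 • u = x.2.2
          module
      right_inv := by
        intro x
        have h : B u u = 0 := hB u
        refine Prod.ext ?_ (Prod.ext rfl ?_)
        · show x.1 - c * x.2.1 - B u x.2.2 + c * x.2.1 + B u (x.2.2 - x.2.1 • u) = x.1
          rw [map_sub, map_smul, h, smul_zero]
          ring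
        · show x.2.2 - x.2.1 • u + x.2.1 • u = x.2.2
          module }, by
    intro x y
    have h : B u u = 0 := hB u
    show (x.1 + c * x.2.1 + B u x.2.2) * y.2.1 - x.2.1 * (y.1 + c * y.2.1 + B u y.2.2) +
      B (x.2.2 + x.2.1 • u) (y.2.2 + y.2.1 • u) = x.1 * y.2.1 - x.2.1 * y.1 + B x.2.2 y.2.2
    simp only [map_add, map_smul, LinearMap.add_apply, LinearMap.smul_apply, smul_eq_mul, h]
    rw [alt_neg hB x.2.2 u]
    ring⟩

theorem qe_apply (hB : B.IsAlt) (c : F) (u : W) (a b : F) (w : W) :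
    (qe hB c u).1 (a, b, w) = (a + c * b + B u w, b, w + b • u) := rfl

theorem qe_mul (hB : B.IsAlt) (c c' : F) (u u' : W) : qe hB c u * qe hB c' u' = qe hB (c + c' + B u u') (u + u') := by
  apply Sp.ext
  rintro ⟨a, b, w⟩
  rw [Sp.mul_apply, qe_apply, qe_apply, qe_apply]
  refine Prod.ext ?_ (Prod.ext rfl ?_)
  · simp only [map_add, map_smul, LinearMap.add_apply, smul_eq_mul]
    ring
  · show w + b • u' + b • u = w + b • (u + u')
    module

theorem qe_zero (hB : B.IsAlt) : qe hB 0 0 = 1 := by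
  apply Sp.ext
  rintro ⟨a, b, w⟩
  rw [qe_apply, Sp.one_apply]
  simp

theorem qe_inv (hB : B.IsAlt) (c : F) (u : W) : (qe hB c u)⁻¹ = qe hB (-c) (-u) := by
  apply inv_eq_of_mul_eq_one_right
  have h : B u u = 0 := hB u
  rw [qe_mul, map_neg, h, ← qe_zero hB]
  congr 1 <;> simp

theorem qe_inj (hB : B.IsAlt) {c c' : F} {u u' : W} (h : qe hB c u = qe hB c' u') : c = c' ∧ u = u' := by
  have h1 : (qe hB c u).1 (0, 1, 0) = (qe hB c' u').1 (0, 1, 0) := by rw [h]
  rw [qe_apply, qe_apply, Prod.mk.injEq, Prod.mk.injEq] at h1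
  simpa using h1

theorem lev_qe (hB : B.IsAlt) (g : Sp B) (c : F) (u : W) : lev g * qe hB c u * (lev g)⁻¹ = qe hB c (g.1 u) := by
  rw [mul_inv_eq_iff_eq_mul]
  apply Sp.ext
  rintro ⟨a, b, w⟩
  rw [Sp.mul_apply, Sp.mul_apply, qe_apply, lev_apply, lev_apply, qe_apply, Sp.isom g, map_add, map_smul]

/-- `Q_e` -/
def Qe (hB : B.IsAlt) : Subgroup (Sp (HB B)) where
  carrier := {g | ∃ c u, g = qe hB c u}
  one_mem' := ⟨0, 0, (qe_zero hB).symm⟩
  mul_mem' := by
    rintro _ _ ⟨c, u, rfl⟩ ⟨c', u', rfl⟩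
    exact ⟨_, _, qe_mul hB c c' u u'⟩
  inv_mem' := by
    rintro _ ⟨c, u, rfl⟩
    exact ⟨_, _, qe_inv hB c u⟩

theorem mem_Qe (hB : B.IsAlt) {g : Sp (HB B)} : g ∈ Qe hB ↔ ∃ c u, g = qe hB c u := Iff.rfl

/-- the order of `Q_e` -/
theorem card_Qe (hB : B.IsAlt) : Nat.card (Qe hB) = Nat.card F * Nat.card W := by
  rw [← Nat.card_prod]
  symm
  refine Nat.card_congr (Equiv.ofBijective (fun x : F × W => (⟨qe hB x.1 x.2, x.1, x.2, rfl⟩ : Qe hB)) ⟨?_, ?_⟩)
  · rintro ⟨c, u⟩ ⟨c', u'⟩ h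
    obtain ⟨h1, h2⟩ := qe_inj hB (congrArg Subtype.val h)
    exact Prod.ext h1 h2
  · rintro ⟨_, c, u, rfl⟩
    exact ⟨(c, u), rfl⟩

theorem slH_u (hB : B.IsAlt) (c : F) (g : Matrix.SpecialLinearGroup (Fin 2) F) (hg : g.1 = !![1, c; 0, 1]) :
    slH g = qe hB c 0 := by
  apply Sp.ext
  rintro ⟨a, b, w⟩
  rw [slH_apply, qe_apply, hg]
  simp

end Model

end Cfsg.Agent.H17.IFSp
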