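import Cfsg.Agent.H17.IFSp.Phi

/-!
# S5719, symplectic groups, `q` odd: PHI in the centraliser of an involution (helper17)
-/

set_option autoImplicit false

namespace Cfsg.Agent.H17.IFSp

open Module

variable {F : Type*} [Field F]

section Even

/-- a nondegenerate alternating form lives on a space of even dimension -/
theorem even_finrank (n : ℕ) : ∀ {V : Type*} [AddCommGroup V] [Module F V] [FiniteDimensional F V]
    {B : LinearMap.BilinForm F V}, B.IsAlt → ND B → finrank F V = n → Even n := by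
  induction n using Nat.strong_induction_on with
  | _ n ih =>
    intro V _ _ _ B hB hnd hn
    rcases Nat.eq_zero_or_pos n with h0 | h0
    · rw [h0]
      exact Even.zero
    have hnt : Nontrivial V := Module.nontrivial_of_finrank_pos (R := F) (by omega)
    obtain ⟨e, he⟩ := exists_ne (0 : V)
    obtain ⟨f, hef⟩ := exists_pair hnd he
    have h3 := finrank_perp2 hB hef
    have h4 := ih (finrank F (perp2 B e f)) (by omega) (B2_alt hB e f) (B2_nd hB hnd hef) rfl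
    rw [← hn, ← h3]
    exact h4.add even_two

end Even

section Glue

variable {V : Type*} [AddCommGroup V] [Module F V] {B : LinearMap.BilinForm F V} {U₁ U₂ : Submodule F V}

theorem exists_add (hc : IsCompl U₁ U₂) (x : V) : ∃ (a : U₁) (b : U₂), a.1 + b.1 = x := by
  obtain ⟨a, h⟩ := (Submodule.prodEquivOfIsCompl U₁ U₂ hc).surjective x
  exact ⟨a.1, a.2, h⟩

theorem glue_isom (hB : B.IsAlt) (ho : ∀ x ∈ U₁, ∀ y ∈ U₂, B x y = 0) (a a' : U₁) (b b' : U₂) :
    B (a.1 + b.1) (a'.1 + b'.1) = B a.1 a'.1 + B b.1 b'.1 := by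
  have h1 := ho _ a.2 _ b'.2
  have h2 : B b.1 a'.1 = 0 := by rw [alt_neg hB, ho _ a'.2 _ b.2, neg_zero]
  rw [map_add, map_add, LinearMap.add_apply, LinearMap.add_apply, h1, h2, add_zero, zero_add]

/-- the linear map -/
noncomputable def glueL (hc : IsCompl U₁ U₂) (g₁ : U₁ ≃ₗ[F] U₁) (g₂ : U₂ ≃ₗ[F] U₂) : V ≃ₗ[F] V :=
  (Submodule.prodEquivOfIsCompl U₁ U₂ hc).symm.trans ((g₁.prodCongr g₂).trans (Submodule.prodEquivOfIsCompl U₁ U₂ hc))

theorem glueL_apply (hc : IsCompl U₁ U₂) (g₁ : U₁ ≃ₗ[F] U₁) (g₂ : U₂ ≃ₗ[F] U₂) (a : U₁) (b : U₂) :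
    glueL hc g₁ g₂ (a.1 + b.1) = (g₁ a).1 + (g₂ b).1 := by
  have h1 : a.1 + b.1 = Submodule.prodEquivOfIsCompl U₁ U₂ hc (a, b) := rfl
  rw [h1, glueL, LinearEquiv.trans_apply, LinearEquiv.trans_apply, LinearEquiv.symm_apply_apply]
  rfl

/-- the product of the isometry groups -/
noncomputable def glue (hB : B.IsAlt) (hc : IsCompl U₁ U₂) (ho : ∀ x ∈ U₁, ∀ y ∈ U₂, B x y = 0) :
    Sp (B.restrict U₁) × Sp (B.restrict U₂) →* Sp B where
  toFun g := ⟨glueL hc g.1.1 g.2.1, by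
    intro x y
    obtain ⟨a, b, rfl⟩ := exists_add hc x
    obtain ⟨a', b', rfl⟩ := exists_add hc y
    rw [glueL_apply, glueL_apply, glue_isom hB ho, glue_isom hB ho]
    have h1 := Sp.isom g.1 a a'
    have h2 := Sp.isom g.2 b b'
    exact congrArg₂ (· + ·) h1 h2⟩
  map_one' := Sp.ext fun x => by
    obtain ⟨a, b, rfl⟩ := exists_add hc x
    exact glueL_apply hc _ _ a b
  map_mul' g h := Sp.ext fun x => by
    obtain ⟨a, b, rfl⟩ := exists_add hc x
    rw [Sp.mul_apply]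
    show glueL hc (g * h).1.1 (g * h).2.1 (a.1 + b.1) = glueL hc g.1.1 g.2.1 (glueL hc h.1.1 h.2.1 (a.1 + b.1))
    rw [glueL_apply, glueL_apply hc h.1.1 h.2.1, glueL_apply hc g.1.1 g.2.1]
    rfl

theorem glue_apply (hB : B.IsAlt) (hc : IsCompl U₁ U₂) (ho : ∀ x ∈ U₁, ∀ y ∈ U₂, B x y = 0)
    (g : Sp (B.restrict U₁) × Sp (B.restrict U₂)) (a : U₁) (b : U₂) :
    (glue hB hc ho g).1 (a.1 + b.1) = (g.1.1 a).1 + (g.2.1 b).1 := glueL_apply hc g.1.1 g.2.1 a b

theorem glue_fund1 (hB : B.IsAlt) (hc : IsCompl U₁ U₂) (ho : ∀ x ∈ U₁, ∀ y ∈ U₂, B x y = 0)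
    {z : Sp (B.restrict U₁)} (hz : Fund (B.restrict U₁) z) : Fund B (glue hB hc ho (z, 1)) := by
  obtain ⟨e, f, hef, hz⟩ := hz
  refine ⟨e.1, f.1, hef, ?_⟩
  intro x
  obtain ⟨a, b, rfl⟩ := exists_add hc x
  rw [glue_apply, hz]
  have h1 : B b.1 e.1 = 0 := by rw [alt_neg hB, ho _ e.2 _ b.2, neg_zero]
  have h2 : B b.1 f.1 = 0 := by rw [alt_neg hB, ho _ f.2 _ b.2, neg_zero]
  have h3 : ((1 : Sp (B.restrict U₂)).1 b).1 = b.1 := rfl
  rw [map_add, LinearMap.add_apply, LinearMap.add_apply, h1, h2, add_zero, add_zero, h3]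
  show a.1 - (2 * B a.1 f.1) • e.1 + (2 * B a.1 e.1) • f.1 + b.1 = _
  abel

theorem glue_fund2 (hB : B.IsAlt) (hc : IsCompl U₁ U₂) (ho : ∀ x ∈ U₁, ∀ y ∈ U₂, B x y = 0)
    {z : Sp (B.restrict U₂)} (hz : Fund (B.restrict U₂) z) : Fund B (glue hB hc ho (1, z)) := by
  obtain ⟨e, f, hef, hz⟩ := hz
  refine ⟨e.1, f.1, hef, ?_⟩
  intro x
  obtain ⟨a, b, rfl⟩ := exists_add hc x
  rw [glue_apply, hz]
  have h1 : B a.1 e.1 = 0 := ho _ a.2 _ e.2
  have h2 : B a.1 f.1 = 0 := ho _ a.2 _ f.2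
  have h3 : ((1 : Sp (B.restrict U₁)).1 a).1 = a.1 := rfl
  rw [map_add, LinearMap.add_apply, LinearMap.add_apply, h1, h2, zero_add, zero_add, h3]
  show a.1 + (b.1 - (2 * B b.1 f.1) • e.1 + (2 * B b.1 e.1) • f.1) = _
  abel

theorem nd_restrict1 (hc : IsCompl U₁ U₂) (ho : ∀ x ∈ U₁, ∀ y ∈ U₂, B x y = 0) (hnd : ND B) :
    ND (B.restrict U₁) := by
  intro x hx
  apply Subtype.ext
  apply hnd
  intro y
  obtain ⟨a, b, rfl⟩ := exists_add hc y
  rw [map_add, ho _ x.2 _ b.2, add_zero]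
  exact hx a

theorem nd_restrict2 (hB : B.IsAlt) (hc : IsCompl U₁ U₂) (ho : ∀ x ∈ U₁, ∀ y ∈ U₂, B x y = 0) (hnd : ND B) :
    ND (B.restrict U₂) := by
  refine nd_restrict1 hc.symm (fun x hx y hy => ?_) hnd
  rw [alt_neg hB, ho y hy x hx, neg_zero]

/-- PHI in a product of two perpendicular spaces -/
theorem phi_glue [Finite F] {V : Type} [AddCommGroup V] [Module F V] [FiniteDimensional F V]
    {B : LinearMap.BilinForm F V} {U₁ U₂ : Submodule F V} (h2 : (2 : F) ≠ 0) (hB : B.IsAlt)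
    (hnd : ND B) (hc : IsCompl U₁ U₂) (ho : ∀ x ∈ U₁, ∀ y ∈ U₂, B x y = 0) {k l : ℕ} (hk : finrank F U₁ = 2 * k)
    (hl : finrank F U₂ = 2 * l) (X : Subgroup (Sp B)) (hX : ∀ z : Sp B, Fund B z → z ∉ X) :
    Nat.card F ^ (k * (k + 1) / 2 + l * (l + 1) / 2) ≤ X.relIndex (glue hB hc ho).range := by
  rw [← Subgroup.index_comap]
  refine phi_prod h2 (fun x => hB x.1) (nd_restrict1 hc ho hnd) hk (fun x => hB x.1)
    (nd_restrict2 hB hc ho hnd) hl _ ?_ ?_
  · intro z hz hzX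
    exact hX _ (glue_fund1 hB hc ho hz) hzX
  · intro z hz hzX
    exact hX _ (glue_fund2 hB hc ho hz) hzX

end Glue

section Cent

variable {V : Type} [AddCommGroup V] [Module F V] {B : LinearMap.BilinForm F V}

/-- `{x | τ x = c x}` -/
def eig (τ : Sp B) (c : F) : Submodule F V where
  carrier := {x | τ.1 x = c • x}
  add_mem' := by
    intro a b ha hb
    have ha' : τ.1 a = c • a := ha
    have hb' : τ.1 b = c • b := hb
    show τ.1 (a + b) = c • (a + b)
    rw [map_add, ha', hb', smul_add]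
  zero_mem' := by
    show τ.1 0 = c • 0
    rw [map_zero, smul_zero]
  smul_mem' := by
    intro t a ha
    have ha' : τ.1 a = c • a := ha
    show τ.1 (t • a) = c • (t • a)
    rw [map_smul, ha', smul_comm]

theorem mem_eig {τ : Sp B} {c : F} {x : V} : x ∈ eig τ c ↔ τ.1 x = c • x := Iff.rfl

theorem eig_compl (h2 : (2 : F) ≠ 0) {τ : Sp B} (hτ : τ * τ = 1) : IsCompl (eig τ (-1)) (eig τ 1) := by
  have hττ : ∀ x, τ.1 (τ.1 x) = x := by
    intro x
    rw [← Sp.mul_apply, hτ, Sp.one_apply]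
  constructor
  · rw [Submodule.disjoint_def]
    intro x h1 h3
    rw [mem_eig] at h1 h3
    rw [h3, one_smul, neg_smul, one_smul] at h1
    have h4 : (2 : F) • x = 0 := by
      rw [two_smul]
      nth_rewrite 1 [h1]
      exact neg_add_cancel x
    exact (smul_eq_zero.1 h4).resolve_left h2
  · rw [codisjoint_iff, Submodule.eq_top_iff']
    intro x
    rw [Submodule.mem_sup]
    refine ⟨(2 : F)⁻¹ • (x - τ.1 x), ?_, (2 : F)⁻¹ • (x + τ.1 x), ?_, ?_⟩
    · rw [mem_eig, map_smul, map_sub, hττ]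
      module
    · rw [mem_eig, map_smul, map_add, hττ]
      module
    · rw [← smul_add]
      have : x - τ.1 x + (x + τ.1 x) = (2 : F) • x := by module
      rw [this, smul_smul, inv_mul_cancel₀ h2, one_smul]

theorem eig_perp (h2 : (2 : F) ≠ 0) {τ : Sp B} : ∀ x ∈ eig τ (-1), ∀ y ∈ eig τ 1, B x y = 0 := by
  intro x hx y hy
  rw [mem_eig] at hx hy
  have h1 := Sp.isom τ x y
  rw [hx, hy, map_smul, map_smul, LinearMap.smul_apply, smul_eq_mul, smul_eq_mul, one_mul] at h1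
  have h3 : 2 * B x y = 0 := by linear_combination -h1
  exact (mul_eq_zero.1 h3).resolve_left h2

theorem glue_le_cent (h2 : (2 : F) ≠ 0) (hB : B.IsAlt) {τ : Sp B} (hτ : τ * τ = 1) {y : Sp B}
    (hy : y ∈ (glue hB (eig_compl h2 hτ) (eig_perp h2)).range) : y ∈ Subgroup.centralizer ({τ} : Set (Sp B)) := by
  obtain ⟨g, rfl⟩ := hy
  rw [Subgroup.mem_centralizer_iff]
  intro w hw
  rw [Set.mem_singleton_iff.1 hw]
  apply Sp.ext
  intro x
  obtain ⟨a, b, rfl⟩ := exists_add (eig_compl h2 hτ) x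
  rw [Sp.mul_apply, Sp.mul_apply, glue_apply, map_add, map_add, mem_eig.1 a.2, mem_eig.1 b.2,
    mem_eig.1 (g.1.1 a).2, mem_eig.1 (g.2.1 b).2]
  have h3 := glue_apply hB (eig_compl h2 hτ) (eig_perp h2) g (-a) b
  rw [map_neg] at h3
  simp only [Submodule.coe_neg] at h3
  rw [neg_smul, one_smul, one_smul, neg_smul, one_smul, one_smul, h3]

/-- **PHI in the centraliser of an involution.** -/
theorem phi_cent [Finite F] [FiniteDimensional F V] (h2 : (2 : F) ≠ 0) (hB : B.IsAlt) (hnd : ND B) {τ : Sp B}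
    (hτ : τ * τ = 1) {k l : ℕ} (hk : finrank F (eig τ (-1)) = 2 * k) (hl : finrank F (eig τ 1) = 2 * l)
    (X : Subgroup (Sp B)) (hX : ∀ z : Sp B, Fund B z → z ∉ X) :
    Nat.card F ^ (k * (k + 1) / 2 + l * (l + 1) / 2) ≤ X.relIndex (Subgroup.centralizer ({τ} : Set (Sp B))) := by
  have hfin : Finite (Sp B) := finite_Sp B
  refine le_trans (phi_glue h2 hB hnd (eig_compl h2 hτ) (eig_perp h2) hk hl X hX) ?_
  refine Subgroup.relIndex_le_of_le_right (fun y hy => glue_le_cent h2 hB hτ hy) (by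
    rw [Subgroup.relIndex]
    exact Subgroup.index_ne_zero_of_finite)

end Cent

end Cfsg.Agent.H17.IFSp
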