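import Cfsg.Agent.H17.IFSp.Cent
import Cfsg.Agent.ClassicalGeometry.SympSiegel

/-!
# S5719, symplectic groups, `q` odd: PHI for `Matrix.symplecticGroup (Fin m) F` (helper17)

* `spMat : Matrix.symplecticGroup (Fin m) F ≃* Sp (sympBilin m F)`, `(spMat g).1 v = g • v`;
* `phi_mat` : `X` without elements `z`, `z * z = 1`, `rank (z - 1) = 2`, has index at least `q ^ (m (m + 1) / 2)`;
* `phi_mat_cent` : the same in the centraliser of an involution.
-/

set_option autoImplicit false

namespace Cfsg.Agent.H17.IFSp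

open Module Cfsg Cfsg.Agent.ClassicalGeometry.SympBasic Cfsg.Agent.ClassicalGeometry.SympSiegel

section

variable {F : Type*} [Field F] {m : ℕ}

/-- the matrix group acts as the isometry group -/
def spMatHom : Matrix.symplecticGroup (Fin m) F →* Sp (sympBilin m F) where
  toFun g := ⟨{ toFun := fun x => g • x
                map_add' := smul_add' g
                map_smul' := fun c x => smul_smul' g c x
                invFun := fun x => g⁻¹ • x
                left_inv := inv_smul_smul g
                right_inv := smul_inv_smul g }, form_smul g⟩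
  map_one' := Sp.ext fun x => one_smul (Matrix.symplecticGroup (Fin m) F) x
  map_mul' g h := Sp.ext fun x => mul_smul g h x

theorem spMatHom_apply (g : Matrix.symplecticGroup (Fin m) F) (x : Fin m ⊕ Fin m → F) :
    (spMatHom g).1 x = g • x := rfl

theorem spMatHom_bij : Function.Bijective (spMatHom (F := F) (m := m)) := by
  constructor
  · intro g h hgh
    apply ext_smul
    intro v
    rw [← spMatHom_apply, ← spMatHom_apply, hgh]
  · intro g
    refine ⟨ofIso (g.1 : (Fin m ⊕ Fin m → F) →ₗ[F] (Fin m ⊕ Fin m → F)) g.2, ?_⟩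
    apply Sp.ext
    intro x
    exact ofIso_smul (g.1 : (Fin m ⊕ Fin m → F) →ₗ[F] (Fin m ⊕ Fin m → F)) g.2 x

/-- the matrix group is the isometry group -/
noncomputable def spMat : Matrix.symplecticGroup (Fin m) F ≃* Sp (sympBilin m F) :=
  MulEquiv.ofBijective spMatHom spMatHom_bij

theorem spMat_apply (g : Matrix.symplecticGroup (Fin m) F) (x : Fin m ⊕ Fin m → F) :
    (spMat g).1 x = g • x := rfl

theorem spMat_symm_smul (g : Sp (sympBilin m F)) (x : Fin m ⊕ Fin m → F) : spMat.symm g • x = g.1 x := by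
  rw [← spMat_apply, MulEquiv.apply_symm_apply]

/-- fundamental involution in the matrix group -/
def FundM (z : Matrix.symplecticGroup (Fin m) F) : Prop :=
  ∃ a b : Fin m ⊕ Fin m → F, sympForm m F a b = 1 ∧
    ∀ x, z • x = x - (2 * sympForm m F x b) • a + (2 * sympForm m F x a) • b

theorem fund_spMat {z : Matrix.symplecticGroup (Fin m) F} : Fund (sympBilin m F) (spMat z) ↔ FundM z := Iff.rfl

theorem sb_alt : LinearMap.BilinForm.IsAlt (sympBilin m F) := sympBilin_isAlt

theorem sb_nd : ND (sympBilin m F) := by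
  intro x hx
  exact (sympBilin_nondegenerate (F := F) (m := m)).1 x hx

theorem finrank_V : finrank F (Fin m ⊕ Fin m → F) = 2 * m := by
  rw [Module.finrank_fintype_fun_eq_card, Fintype.card_sum, Fintype.card_fin]
  ring

theorem FundM.sq {z : Matrix.symplecticGroup (Fin m) F} (h : FundM z) : z * z = 1 := by
  apply spMat.injective
  rw [map_mul, map_one]
  exact Fund.sq sb_alt (fund_spMat.2 h)

/-- `rank (z - 1) = 2` -/
theorem FundM.rank (h2 : (2 : F) ≠ 0) {z : Matrix.symplecticGroup (Fin m) F} (h : FundM z) :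
    ((z : Matrix (Fin m ⊕ Fin m) (Fin m ⊕ Fin m) F) - 1).rank = 2 := by
  obtain ⟨a, b, hab, hz⟩ := h
  have haa : sympForm m F a a = 0 := sympForm_self a
  have hbb : sympForm m F b b = 0 := sympForm_self b
  have hba : sympForm m F b a = -1 := by rw [sympForm_swap, hab]
  have hz1 : ∀ x, ((z : Matrix (Fin m ⊕ Fin m) (Fin m ⊕ Fin m) F) - 1).mulVec x =
      (-(2 * sympForm m F x b)) • a + (2 * sympForm m F x a) • b := by
    intro x
    rw [Matrix.sub_mulVec, Matrix.one_mulVec, ← smul_def, hz]
    module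
  have hr : LinearMap.range ((z : Matrix (Fin m ⊕ Fin m) (Fin m ⊕ Fin m) F) - 1).mulVecLin =
      Submodule.span F (Set.range ![a, b]) := by
    apply le_antisymm
    · rintro _ ⟨x, rfl⟩
      rw [Matrix.mulVecLin_apply, hz1]
      exact add_mem (Submodule.smul_mem _ _ (Submodule.subset_span ⟨0, rfl⟩))
        (Submodule.smul_mem _ _ (Submodule.subset_span ⟨1, rfl⟩))
    · rw [Submodule.span_le]
      rintro _ ⟨i, rfl⟩
      have h3 : ∀ v : Fin m ⊕ Fin m → F, ((z : Matrix (Fin m ⊕ Fin m) (Fin m ⊕ Fin m) F) - 1).mulVec v = (-2 : F) • v →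
          v ∈ LinearMap.range ((z : Matrix (Fin m ⊕ Fin m) (Fin m ⊕ Fin m) F) - 1).mulVecLin := by
        intro v hv
        refine ⟨(-2 : F)⁻¹ • v, ?_⟩
        rw [Matrix.mulVecLin_apply, Matrix.mulVec_smul, hv, smul_smul, inv_mul_cancel₀ (neg_ne_zero.2 h2), one_smul]
      fin_cases i
      · apply h3
        show ((z : Matrix (Fin m ⊕ Fin m) (Fin m ⊕ Fin m) F) - 1).mulVec a = (-2 : F) • a
        rw [hz1, haa, hab]
        module
      · apply h3
        show ((z : Matrix (Fin m ⊕ Fin m) (Fin m ⊕ Fin m) F) - 1).mulVec b = (-2 : F) • b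
        rw [hz1, hbb, hba]
        module
  rw [Matrix.rank, hr, finrank_span_eq_card, Fintype.card_fin]
  rw [LinearIndependent.pair_iff]
  intro s t hst
  have h4 := congrArg (fun v => sympForm m F v b) hst
  have h5 := congrArg (fun v => sympForm m F v a) hst
  simp only [sympForm_add_left, sympForm_smul_left, sympForm_zero_left, haa, hbb, hab, hba] at h4 h5
  exact ⟨by linear_combination h4, by linear_combination -h5⟩

end

section

variable {F : Type*} [Field F] [Finite F] {m : ℕ}

/-- **PHI for the matrix group.** -/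
theorem phi_mat (h2 : (2 : F) ≠ 0) (X : Subgroup (Matrix.symplecticGroup (Fin m) F))
    (hX : ∀ z : Matrix.symplecticGroup (Fin m) F, z * z = 1 →
      ((z : Matrix (Fin m ⊕ Fin m) (Fin m ⊕ Fin m) F) - 1).rank = 2 → z ∉ X) :
    Nat.card F ^ (m * (m + 1) / 2) ≤ X.index := by
  have hi : (X.comap spMat.symm.toMonoidHom).index = X.index :=
    Subgroup.index_comap_of_surjective X (f := spMat.symm.toMonoidHom) spMat.symm.surjective
  rw [← hi]
  refine phi_one h2 sb_alt sb_nd finrank_V _ ?_
  intro z hz hzX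
  have h3 : FundM (spMat.symm z) := by
    rw [← fund_spMat, MulEquiv.apply_symm_apply]
    exact hz
  exact hX _ h3.sq (h3.rank h2) hzX

end

section

variable {F : Type} [Field F] [Finite F] {m : ℕ}

/-- the `c`-eigenspace of a symplectic matrix -/
noncomputable def eigM (τ : Matrix.symplecticGroup (Fin m) F) (c : F) : Submodule F (Fin m ⊕ Fin m → F) := eig (spMat τ) c

omit [Finite F] in
theorem mem_eigM {τ : Matrix.symplecticGroup (Fin m) F} {c : F} {x : Fin m ⊕ Fin m → F} :
    x ∈ eigM τ c ↔ τ • x = c • x := Iff.rfl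

/-- **PHI in the centraliser of an involution**, matrix group. -/
theorem phi_mat_cent' (h2 : (2 : F) ≠ 0) {τ : Matrix.symplecticGroup (Fin m) F} (hτ : τ * τ = 1) {k l : ℕ}
    (hk : finrank F (eigM τ (-1)) = 2 * k) (hl : finrank F (eigM τ 1) = 2 * l)
    (X : Subgroup (Matrix.symplecticGroup (Fin m) F)) (hX : ∀ z ∈ X, ¬ FundM z) :
    Nat.card F ^ (k * (k + 1) / 2 + l * (l + 1) / 2) ≤
      X.relIndex (Subgroup.centralizer ({τ} : Set (Matrix.symplecticGroup (Fin m) F))) := by
  have h3 := phi_cent h2 sb_alt sb_nd (τ := spMat τ) (by rw [← map_mul, hτ, map_one]) hk hl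
    (X.comap spMat.symm.toMonoidHom) (by
      intro z hz hzX
      have h3 : FundM (spMat.symm z) := by
        rw [← fund_spMat, MulEquiv.apply_symm_apply]
        exact hz
      exact hX _ hzX h3)
  refine h3.trans (le_of_eq ?_)
  rw [Subgroup.relIndex_comap]
  congr 1
  ext x
  rw [Subgroup.mem_map]
  constructor
  · rintro ⟨y, hy, rfl⟩
    rw [Subgroup.mem_centralizer_iff] at hy ⊢
    intro w hw
    rw [Set.mem_singleton_iff.1 hw]
    apply spMat.injective
    rw [map_mul, map_mul]
    show spMat τ * spMat (spMat.symm y) = spMat (spMat.symm y) * spMat τ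
    rw [MulEquiv.apply_symm_apply]
    exact hy _ rfl
  · intro hx
    refine ⟨spMat x, ?_, spMat.symm_apply_apply x⟩
    rw [Subgroup.mem_centralizer_iff] at hx ⊢
    intro w hw
    rw [Set.mem_singleton_iff.1 hw, ← map_mul, ← map_mul, hx _ rfl]

/-- **PHI in the centraliser of an involution**, matrix group. -/
theorem phi_mat_cent (h2 : (2 : F) ≠ 0) {τ : Matrix.symplecticGroup (Fin m) F} (hτ : τ * τ = 1) {k l : ℕ}
    (hk : finrank F (eigM τ (-1)) = 2 * k) (hl : finrank F (eigM τ 1) = 2 * l)
    (X : Subgroup (Matrix.symplecticGroup (Fin m) F))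
    (hX : ∀ z : Matrix.symplecticGroup (Fin m) F, z * z = 1 →
      ((z : Matrix (Fin m ⊕ Fin m) (Fin m ⊕ Fin m) F) - 1).rank = 2 → z ∉ X) :
    Nat.card F ^ (k * (k + 1) / 2 + l * (l + 1) / 2) ≤
      X.relIndex (Subgroup.centralizer ({τ} : Set (Matrix.symplecticGroup (Fin m) F))) :=
  phi_mat_cent' h2 hτ hk hl X fun z hz h => hX z h.sq (h.rank h2) hz

omit [Finite F] in
/-- the dimensions are even and add up -/
theorem exists_dims (h2 : (2 : F) ≠ 0) {τ : Matrix.symplecticGroup (Fin m) F} (hτ : τ * τ = 1) :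
    ∃ k l : ℕ, finrank F (eigM τ (-1)) = 2 * k ∧ finrank F (eigM τ 1) = 2 * l ∧ k + l = m := by
  have hτ' : spMat τ * spMat τ = 1 := by rw [← map_mul, hτ, map_one]
  have hc := eig_compl h2 hτ'
  have ho := eig_perp (B := sympBilin m F) h2 (τ := spMat τ)
  obtain ⟨k, hk⟩ := even_finrank _ (B := LinearMap.BilinForm.restrict (sympBilin m F) (eig (spMat τ) (-1)))
    (fun x => sb_alt x.1) (nd_restrict1 hc ho sb_nd) rfl
  obtain ⟨l, hl⟩ := even_finrank _ (B := LinearMap.BilinForm.restrict (sympBilin m F) (eig (spMat τ) 1))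
    (fun x => sb_alt x.1) (nd_restrict2 sb_alt hc ho sb_nd) rfl
  have h3 := Submodule.finrank_add_eq_of_isCompl hc
  rw [finrank_V] at h3
  exact ⟨k, l, by rw [two_mul]; exact hk, by rw [two_mul]; exact hl, by omega⟩

end

end Cfsg.Agent.H17.IFSp
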