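import Cfsg.Agent.H17.IFSp.Mat
import Cfsg.Agent.H177.InvolOrth
import Cfsg.Agent.H500.IF.SpSplit

/-!
# S5719, symplectic groups, `q` odd: class sizes of involutions, the involutions of type `(k, l)` (helper17)
-/

set_option autoImplicit false

namespace Cfsg.Agent.H17.IFSp

open Module Cfsg Cfsg.Agent.ClassicalGeometry.SympBasic Cfsg.Agent.ClassicalGeometry.SympSiegel

/-- lower bound for the order of the symplectic group -/
theorem le_card_mat {F : Type*} [Field F] [Fintype F] (m : ℕ) :
    Fintype.card F ^ (2 * m ^ 2) ≤ Nat.card (Matrix.symplecticGroup (Fin m) F) := by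
  have hq : 1 < Fintype.card F := Fintype.one_lt_card
  rw [Cfsg.Agent.S0245.result rfl m]
  have h1 : Fintype.card F ^ (m ^ 2) ≤ ∏ i ∈ Finset.range m, (Fintype.card F ^ (2 * (i + 1)) - 1) := by
    have h3 : ∑ i ∈ Finset.range m, (2 * i + 1) = m ^ 2 := by
      induction m with
      | zero => rfl
      | succ k ih =>
        rw [Finset.sum_range_succ, ih]
        ring
    rw [← h3, ← Finset.prod_pow_eq_pow_sum]
    refine Finset.prod_le_prod' fun i _ => ?_
    have h4 : Fintype.card F ^ (2 * (i + 1)) = Fintype.card F * Fintype.card F ^ (2 * i + 1) := by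
      rw [← pow_succ']
      rfl
    have h5 : 0 < Fintype.card F ^ (2 * i + 1) := pow_pos (by omega) _
    have h6 : 2 * Fintype.card F ^ (2 * i + 1) ≤ Fintype.card F * Fintype.card F ^ (2 * i + 1) :=
      Nat.mul_le_mul_right _ hq
    omega
  calc Fintype.card F ^ (2 * m ^ 2) = Fintype.card F ^ (m ^ 2) * Fintype.card F ^ (m ^ 2) := by
        rw [← pow_add]; congr 1; ring
    _ ≤ _ := Nat.mul_le_mul_left _ h1

/-- lower bound for the order of an isometry group -/
theorem le_card_Sp {F : Type} [Field F] [Fintype F] {V : Type} [AddCommGroup V] [Module F V] [FiniteDimensional F V]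
    {B : LinearMap.BilinForm F V} (hB : B.IsAlt) (hnd : ND B) {k : ℕ} (hk : finrank F V = 2 * k) :
    Fintype.card F ^ (2 * k ^ 2) ≤ Nat.card (Sp B) := by
  have hnd' : B.Nondegenerate := by
    refine ⟨fun x hx => hnd x hx, fun x hx => hnd x fun y => ?_⟩
    rw [alt_neg hB, hx y, neg_zero]
  obtain ⟨φ, hφ⟩ := Cfsg.Agent.H177.InvolOrth.exists_alt_equiv B (sympBilin k F) hB sb_alt hnd'
    sympBilin_nondegenerate (by rw [hk, finrank_V])
  have hi : IsoF B (sympBilin k F) φ := hφ
  rw [Nat.card_congr (spCongr hi).toEquiv, ← Nat.card_congr (spMat (F := F) (m := k)).toEquiv]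
  exact le_card_mat k

theorem glue_injective {F : Type*} [Field F] {V : Type*} [AddCommGroup V] [Module F V]
    {B : LinearMap.BilinForm F V} {U₁ U₂ : Submodule F V} (hB : B.IsAlt) (hc : IsCompl U₁ U₂)
    (ho : ∀ x ∈ U₁, ∀ y ∈ U₂, B x y = 0) : Function.Injective (glue hB hc ho) := by
  intro g h hgh
  refine Prod.ext (Sp.ext fun a => Subtype.ext ?_) (Sp.ext fun b => Subtype.ext ?_)
  · have h1 := glue_apply hB hc ho g a 0
    rw [hgh, glue_apply hB hc ho h a 0, map_zero, map_zero] at h1
    simpa using h1.symm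
  · have h1 := glue_apply hB hc ho g 0 b
    rw [hgh, glue_apply hB hc ho h 0 b, map_zero, map_zero] at h1
    simpa using h1.symm

/-- lower bound for the order of the centraliser of an involution -/
theorem le_card_cent {F : Type} [Field F] [Fintype F] {V : Type} [AddCommGroup V] [Module F V] [FiniteDimensional F V]
    {B : LinearMap.BilinForm F V} (h2 : (2 : F) ≠ 0) (hB : B.IsAlt) (hnd : ND B) {τ : Sp B}
    (hτ : τ * τ = 1) {k l : ℕ} (hk : finrank F (eig τ (-1)) = 2 * k) (hl : finrank F (eig τ 1) = 2 * l) :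
    Fintype.card F ^ (2 * k ^ 2 + 2 * l ^ 2) ≤ Nat.card (Subgroup.centralizer ({τ} : Set (Sp B))) := by
  have hfin : Finite (Sp B) := finite_Sp B
  have hc := eig_compl h2 hτ
  have ho := eig_perp (B := B) h2 (τ := τ)
  have h1 := le_card_Sp (fun x : eig τ (-1) => hB x.1) (nd_restrict1 hc ho hnd) hk
  have h3 := le_card_Sp (fun x : eig τ 1 => hB x.1) (nd_restrict2 hB hc ho hnd) hl
  rw [pow_add]
  refine (Nat.mul_le_mul h1 h3).trans ?_
  rw [← Nat.card_prod, Nat.card_congr (MonoidHom.ofInjective (glue_injective hB hc ho)).toEquiv]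
  exact Nat.card_le_card_of_injective (fun x => (⟨x.1, glue_le_cent h2 hB hτ x.2⟩ :
    Subgroup.centralizer ({τ} : Set (Sp B)))) (fun x y hxy => Subtype.ext
      (congrArg (fun t : Subgroup.centralizer ({τ} : Set (Sp B)) => t.1) hxy))

section Kill

variable {F : Type} [Field F] [Fintype F] {m : ℕ}

/-- the class of an involution of type `(k, l)` -/
theorem index_cent_le (h2 : (2 : F) ≠ 0) {τ : Matrix.symplecticGroup (Fin m) F} (hτ : τ * τ = 1) {k l : ℕ}
    (hk : finrank F (eigM τ (-1)) = 2 * k) (hl : finrank F (eigM τ 1) = 2 * l) (hkl : k + l = m) :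
    (Subgroup.centralizer ({τ} : Set (Matrix.symplecticGroup (Fin m) F))).index ≤ Fintype.card F ^ (4 * k * l + m) := by
  have : Finite (Matrix.symplecticGroup (Fin m) F) := Subtype.finite
  have hq : 0 < Fintype.card F := Fintype.card_pos
  have h1 := le_card_cent h2 sb_alt sb_nd (τ := spMat τ) (by rw [← map_mul, hτ, map_one]) hk hl
  have h3 : Nat.card (Subgroup.centralizer ({spMat τ} : Set (Sp (sympBilin m F)))) =
      Nat.card (Subgroup.centralizer ({τ} : Set (Matrix.symplecticGroup (Fin m) F))) := by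
    symm
    refine Nat.card_congr
      { toFun := fun x => ⟨spMat x.1, ?_⟩
        invFun := fun y => ⟨spMat.symm y.1, ?_⟩
        left_inv := fun x => Subtype.ext (spMat.symm_apply_apply x.1)
        right_inv := fun y => Subtype.ext (spMat.apply_symm_apply y.1) }
    · have hx := x.2
      rw [Subgroup.mem_centralizer_iff] at hx ⊢
      intro w hw
      rw [Set.mem_singleton_iff.1 hw, ← map_mul, ← map_mul, hx _ rfl]
    · have hy := y.2
      rw [Subgroup.mem_centralizer_iff] at hy ⊢
      intro w hw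
      rw [Set.mem_singleton_iff.1 hw]
      apply spMat.injective
      rw [map_mul, map_mul, MulEquiv.apply_symm_apply]
      exact hy _ rfl
  rw [h3] at h1
  have h4 := (Subgroup.centralizer ({τ} : Set (Matrix.symplecticGroup (Fin m) F))).index_mul_card
  have h5 := Cfsg.Agent.H500.IFSp.card_sp_le (F := F) (m := m)
  rw [← h4] at h5
  have h6 : Fintype.card F ^ (2 * m ^ 2 + m) =
      Fintype.card F ^ (4 * k * l + m) * Fintype.card F ^ (2 * k ^ 2 + 2 * l ^ 2) := by
    rw [← pow_add]
    congr 1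
    subst hkl
    ring
  rw [h6] at h5
  exact Nat.le_of_mul_le_mul_right ((Nat.mul_le_mul_left _ h1).trans h5) (pow_pos hq _)

/-- **no involution of type `(k, l)`, `k, l ≥ 1`, without a fundamental one.** -/
theorem kill_kl (h2 : (2 : F) ≠ 0) {H : Subgroup (Matrix.symplecticGroup (Fin m) F)}
    (hH : ∀ z ∈ H, ¬ FundM z) {τ : Matrix.symplecticGroup (Fin m) F} (hτ : τ * τ = 1) {k l : ℕ}
    (hk : finrank F (eigM τ (-1)) = 2 * k) (hl : finrank F (eigM τ 1) = 2 * l) (hkl : k + l = m)
    (hE : H.relIndex (Subgroup.centralizer ({τ} : Set (Matrix.symplecticGroup (Fin m) F))) ^ 5 <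
      (Subgroup.centralizer ({τ} : Set (Matrix.symplecticGroup (Fin m) F))).index) : False := by
  have hq : 1 < Fintype.card F := Fintype.one_lt_card
  have h1 := phi_mat_cent' h2 hτ hk hl H hH
  rw [Nat.card_eq_fintype_card] at h1
  have h3 := index_cent_le h2 hτ hk hl hkl
  have h4 : Fintype.card F ^ (5 * (k * (k + 1) / 2 + l * (l + 1) / 2)) < Fintype.card F ^ (4 * k * l + m) := by
    rw [mul_comm 5, pow_mul]
    exact lt_of_le_of_lt (Nat.pow_le_pow_left h1 5) (lt_of_lt_of_le hE h3)
  have h5 := (Nat.pow_lt_pow_iff_right hq).1 h4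
  have h6 : 2 * (k * (k + 1) / 2) = k * (k + 1) := Nat.mul_div_cancel' (Nat.even_mul_succ_self k).two_dvd
  have h7 : 2 * (l * (l + 1) / 2) = l * (l + 1) := Nat.mul_div_cancel' (Nat.even_mul_succ_self l).two_dvd
  generalize k * (k + 1) / 2 = a at *
  generalize l * (l + 1) / 2 = b at *
  subst hkl
  rcases le_total k l with h | h
  · obtain ⟨t, rfl⟩ := Nat.exists_eq_add_of_le h
    nlinarith
  · obtain ⟨t, rfl⟩ := Nat.exists_eq_add_of_le h
    nlinarith

end Kill

end Cfsg.Agent.H17.IFSp
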