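import Cfsg.Agent.H17.IFSp.Basic
import Cfsg.Agent.H17.IFSp.LR
import Cfsg.Agent.H847.IF.Abs

/-!
# S5719, symplectic groups, `q` odd: PHI (helper17; the argument is helper847's)

`phi_sp` : `X ≤ Sp(B) × Γ` without fundamental involutions `(z, 1)` and without `(1, z')`, `z' ∈ Z'`, has index at least
`q ^ (M (M + 1) / 2) c`.
-/

set_option autoImplicit false

namespace Cfsg.Agent.H17.IFSp

open Module

variable {F : Type*} [Field F]

/-- the statement PHI for the form `B` on a space of dimension `2 M` -/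
def PHI {V : Type*} [AddCommGroup V] [Module F V] (B : LinearMap.BilinForm F V) (M : ℕ) : Prop :=
  ∀ (Γ : Type) [Group Γ] [Finite Γ] (Z' : Set Γ), (∀ z ∈ Z', z * z = 1) → (∀ g : Γ, ∀ z ∈ Z', g * z * g⁻¹ ∈ Z') →
    ∀ c : ℕ, (∀ Y : Subgroup Γ, (∀ z ∈ Z', z ∉ Y) → c ≤ Y.index) →
    ∀ X : Subgroup (Sp B × Γ), (∀ z : Sp B, Fund B z → (z, (1 : Γ)) ∉ X) → (∀ z ∈ Z', ((1 : Sp B), z) ∉ X) →
    Nat.card F ^ (M * (M + 1) / 2) * c ≤ X.index

/-- transport of PHI -/
theorem PHI.congr {V V' : Type*} [AddCommGroup V] [Module F V] [AddCommGroup V'] [Module F V']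
    {B : LinearMap.BilinForm F V} {B' : LinearMap.BilinForm F V'} {φ : V ≃ₗ[F] V'} (h : IsoF B B' φ) {M : ℕ}
    (hP : PHI B' M) : PHI B M := by
  intro Γ _ _ Z' hZ2 hZc c hc X h1 h2
  let ψ : Sp B' × Γ ≃* Sp B × Γ := MulEquiv.prodCongr (spCongr h).symm (MulEquiv.refl Γ)
  have hi : (X.comap ψ.toMonoidHom).index = X.index :=
    Subgroup.index_comap_of_surjective X (f := ψ.toMonoidHom) ψ.surjective
  rw [← hi]
  refine hP Γ Z' hZ2 hZc c hc _ ?_ ?_
  · intro z hz hX
    refine h1 ((spCongr h).symm z) (fund_congr' h (by rw [MulEquiv.apply_symm_apply]; exact hz)) ?_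
    exact hX
  · intro z hz hX
    refine h2 z hz ?_
    have h3 : ψ ((1 : Sp B'), z) ∈ X := hX
    have h4 : ψ ((1 : Sp B'), z) = ((1 : Sp B), z) := by
      show ((spCongr h).symm 1, z) = _
      rw [map_one]
    rwa [h4] at h3

section Count

variable {W : Type*} [AddCommGroup W] [Module F W] {B : LinearMap.BilinForm F W}

/-- The size of a totally isotropic additive subset. -/
theorem card_isotropic [Finite F] [FiniteDimensional F W] (hB : B.IsAlt) (hnd : ND B) {M : ℕ}
    (hM : finrank F W = 2 * M) (S : Set W) (hS : ∀ x ∈ S, ∀ y ∈ S, B x y = 0) :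
    Nat.card (Submodule.span F S) ≤ Nat.card F ^ M := by
  have : Finite W := Module.finite_of_finite F
  have hnd' : B.Nondegenerate := by
    refine ⟨fun x hx => hnd x hx, fun x hx => hnd x fun y => ?_⟩
    rw [alt_neg hB, hx y, neg_zero]
  set U := Submodule.span F S with hU
  have h1 : ∀ x ∈ U, ∀ y ∈ U, B x y = 0 := by
    intro x hx y hy
    induction hx using Submodule.span_induction with
    | mem x hx =>
      induction hy using Submodule.span_induction with
      | mem y hy => exact hS x hx y hy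
      | zero => exact map_zero _
      | add y y' _ _ h h' => rw [map_add, h, h', add_zero]
      | smul c y _ h => rw [map_smul, h, smul_zero]
    | zero => rw [map_zero, LinearMap.zero_apply]
    | add x x' _ _ h h' => rw [map_add, LinearMap.add_apply, h, h', add_zero]
    | smul c x _ h => rw [map_smul, LinearMap.smul_apply, h, smul_zero]
  have h2 : U ≤ B.orthogonal U := by
    intro x hx y hy
    exact h1 y hy x hx
  have h3 := Submodule.finrank_mono h2
  have h4 := LinearMap.BilinForm.finrank_orthogonal hnd' U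
  have h5 : finrank F U ≤ M := by
    have h6 := U.finrank_le
    omega
  rw [Module.natCard_eq_pow_finrank (K := F)]
  exact Nat.pow_le_pow_right Nat.card_pos h5

/-- a subgroup `D` of `Q_e` with `D ∩ Z_e = 1` has order at most `q ^ M` -/
theorem card_inf_Qe [Finite F] [FiniteDimensional F W] (hB : B.IsAlt) (hnd : ND B) (h2 : (2 : F) ≠ 0) {M : ℕ}
    (hM : finrank F W = 2 * M) (D : Subgroup (Sp (HB B))) (hD : ∀ g ∈ D, ∃ c u, g = qe hB c u)
    (hZ : ∀ c, qe hB c 0 ∈ D → c = 0) : Nat.card D ≤ Nat.card F ^ M := by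
  have : Finite W := Module.finite_of_finite F
  let S : Set W := {u | ∃ c, qe hB c u ∈ D}
  have hS : ∀ x ∈ S, ∀ y ∈ S, B x y = 0 := by
    rintro x ⟨c, hx⟩ y ⟨c', hy⟩
    have h3 : qe hB c x * qe hB c' y * (qe hB c' y * qe hB c x)⁻¹ ∈ D := D.mul_mem (D.mul_mem hx hy)
      (D.inv_mem (D.mul_mem hy hx))
    have hxx : B x x = 0 := hB x
    have hyy : B y y = 0 := hB y
    have h4 : qe hB c x * qe hB c' y * (qe hB c' y * qe hB c x)⁻¹ = qe hB (2 * B x y) 0 := by
      rw [qe_mul, qe_mul, qe_inv, qe_mul, alt_neg hB y x]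
      congr 1
      · simp only [map_add, map_neg, LinearMap.add_apply, hxx, hyy, alt_neg hB y x]
        ring
      · abel
    rw [h4] at h3
    exact (mul_eq_zero.1 (hZ _ h3)).resolve_left h2
  refine le_trans ?_ (card_isotropic hB hnd hM S hS)
  choose! cc uu huu using hD
  have hmem : ∀ g : D, uu g.1 ∈ Submodule.span F S := by
    intro g
    apply Submodule.subset_span
    refine ⟨cc g.1, ?_⟩
    rw [← huu g.1 g.2]
    exact g.2
  refine Nat.card_le_card_of_injective (fun g : D => (⟨uu g.1, hmem g⟩ : Submodule.span F S)) ?_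
  intro g h hgh
  have h5 : uu g.1 = uu h.1 := congrArg Subtype.val hgh
  have hg : g.1 = qe hB (cc g.1) (uu h.1) := by
    conv_lhs => rw [huu g.1 g.2]
    rw [h5]
  have hh : h.1 = qe hB (cc h.1) (uu h.1) := huu h.1 h.2
  have hgD := g.2
  have hhD := h.2
  generalize cc g.1 = c1 at hg
  generalize cc h.1 = c2 at hh
  generalize uu h.1 = u at hg hh
  rw [hg] at hgD
  rw [hh] at hhD
  have h6 := D.mul_mem hgD (D.inv_mem hhD)
  have hxx : B u u = 0 := hB _
  rw [qe_inv, qe_mul, map_neg, hxx, neg_zero, add_zero, add_neg_cancel, ← sub_eq_add_neg] at h6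
  have h8 := sub_eq_zero.1 (hZ _ h6)
  apply Subtype.ext
  rw [hg, hh, h8]

end Count

section Step

variable {W : Type*} [AddCommGroup W] [Module F W] {B : LinearMap.BilinForm F W}

theorem finite_Sp [Finite F] [FiniteDimensional F W] (B : LinearMap.BilinForm F W) : Finite (Sp B) := by
  have : Finite W := Module.finite_of_finite F
  have : Finite (W ≃ₗ[F] W) := Finite.of_injective (fun g : W ≃ₗ[F] W => (g : W → W)) DFunLike.coe_injective
  infer_instance

/-- the step, if `X ∩ Z_e = 1` -/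
theorem phi_step' [Finite F] [FiniteDimensional F W] (hB : B.IsAlt) (hnd : ND B) (h2 : (2 : F) ≠ 0) {M : ℕ}
    (hM : finrank F W = 2 * M) (hP : PHI B M) (Γ : Type) [Group Γ] [Finite Γ] (Z' : Set Γ)
    (hZ2 : ∀ z ∈ Z', z * z = 1) (hZc : ∀ g : Γ, ∀ z ∈ Z', g * z * g⁻¹ ∈ Z') (c : ℕ)
    (hc : ∀ Y : Subgroup Γ, (∀ z ∈ Z', z ∉ Y) → c ≤ Y.index) (X : Subgroup (Sp (HB B) × Γ))
    (hX1 : ∀ z : Sp (HB B), Fund (HB B) z → (z, (1 : Γ)) ∉ X) (hX2 : ∀ z ∈ Z', ((1 : Sp (HB B)), z) ∉ X)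
    (hZe : ∀ a, (qe hB a 0, (1 : Γ)) ∈ X → a = 0) :
    Nat.card F ^ ((M + 1) * (M + 1 + 1) / 2) * c ≤ X.index := by
  have : Finite W := Module.finite_of_finite F
  have hfin : Finite (Sp B) := finite_Sp B
  have hfin' : Finite (Sp (HB B)) := finite_Sp (HB B)
  have hq : 0 < Nat.card F := Nat.card_pos
  have hqo : Odd (Nat.card F) := by
    rw [← Nat.not_even_iff_odd]
    intro he
    apply h2
    obtain ⟨p, hp⟩ := CharP.exists F
    have := Fintype.ofFinite F
    obtain ⟨n, hpp, hn⟩ := FiniteField.card F p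
    rw [Nat.card_eq_fintype_card, hn] at he
    have h3 : 2 ∣ p := Nat.prime_two.dvd_of_dvd_pow (even_iff_two_dvd.1 he)
    have h4 : 2 = p := (Nat.prime_dvd_prime_iff_eq Nat.prime_two hpp).1 h3
    subst h4
    exact_mod_cast CharP.cast_eq_zero F 2
  have hcW : Nat.card W = Nat.card F ^ (2 * M) := by
    rw [Module.natCard_eq_pow_finrank (K := F), hM]
  let lam : Sp B × Γ →* Sp (HB B) × Γ := (lev (B := B)).prodMap (MonoidHom.id Γ)
  let Q : Subgroup (Sp (HB B) × Γ) := (Qe hB).prod ⊥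
  let Z : Set (Sp (HB B) × Γ) := {z | (Fund (HB B) z.1 ∧ z.2 = 1) ∨ (z.1 = 1 ∧ z.2 ∈ Z')}
  have hQc : Nat.card Q = Nat.card F * Nat.card F ^ (2 * M) := by
    have h3 : Nat.card Q = Nat.card (Qe hB) * Nat.card (⊥ : Subgroup Γ) := by
      rw [← Nat.card_prod]
      exact Nat.card_congr (Subgroup.prodEquiv _ _).toEquiv
    rw [h3, card_Qe, Subgroup.card_bot, mul_one, hcW]
  have key := Cfsg.Agent.H847.IF.abs_index lam Q X (by rw [hQc]; exact hqo.mul hqo.pow) (by
    rintro ⟨g, γ⟩ ⟨u, δ⟩ ⟨hu, hδ⟩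
    have hδ' : δ = 1 := hδ
    subst hδ'
    obtain ⟨a, w, rfl⟩ := hu
    refine ⟨⟨a, g.1 w, ?_⟩, ?_⟩
    · exact lev_qe hB g a w
    · show γ * 1 * γ⁻¹ = 1
      group) Z (by
    rintro ⟨g, γ⟩ (⟨hg, hγ⟩ | ⟨hg, hγ⟩)
    · have hγ' : γ = 1 := hγ
      subst hγ'
      exact Prod.ext (Fund.sq (HB_alt hB) hg) (one_mul 1)
    · have hg' : g = 1 := hg
      subst hg'
      exact Prod.ext (one_mul 1) (hZ2 _ hγ)) (by
    rintro ⟨x, ξ⟩ ⟨g, γ⟩ (⟨hg, hγ⟩ | ⟨hg, hγ⟩)
    · have hγ' : γ = 1 := hγ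
      subst hγ'
      left
      refine ⟨hg.conj x, ?_⟩
      show ξ * 1 * ξ⁻¹ = 1
      group
    · have hg' : g = 1 := hg
      subst hg'
      right
      refine ⟨?_, hZc ξ _ hγ⟩
      show x * 1 * x⁻¹ = 1
      group) (by
    rintro ⟨g, γ⟩ (⟨hg, hγ⟩ | ⟨hg, hγ⟩)
    · have hγ' : γ = 1 := hγ
      subst hγ'
      exact hX1 g hg
    · have hg' : g = 1 := hg
      subst hg'
      exact hX2 γ hγ) (Nat.card F ^ (M * (M + 1) / 2) * c) (by
    intro Y hY
    refine hP Γ Z' hZ2 hZc c hc Y ?_ ?_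
    · intro z hz hzY
      exact hY _ hzY (Or.inl ⟨fund_lev hz, rfl⟩)
    · intro z hz hzY
      exact hY _ hzY (Or.inr ⟨map_one lev, hz⟩))
  have hXQ : Nat.card (X ⊓ Q : Subgroup (Sp (HB B) × Γ)) ≤ Nat.card F ^ M := by
    let D : Subgroup (Sp (HB B)) := (X.comap (MonoidHom.inl (Sp (HB B)) Γ)) ⊓ Qe hB
    refine le_trans ?_ (card_inf_Qe hB hnd h2 hM D (fun g hg => hg.2) (fun a ha => hZe a ha.1))
    refine Nat.card_le_card_of_injective (fun g : (X ⊓ Q : Subgroup (Sp (HB B) × Γ)) => (⟨g.1.1, ?_, g.2.2.1⟩ : D)) ?_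
    · have h3 : g.1.2 = 1 := g.2.2.2
      show (g.1.1, (1 : Γ)) ∈ X
      rw [← h3]
      exact g.2.1
    · intro g h hgh
      apply Subtype.ext
      have h3 : g.1.2 = 1 := g.2.2.2
      have h4 : h.1.2 = 1 := h.2.2.2
      exact Prod.ext (congrArg (fun x : D => x.1) hgh) (h3.trans h4.symm)
  have h5 : Nat.card F ^ M * (Nat.card F ^ (M + 1) * (Nat.card F ^ (M * (M + 1) / 2) * c)) ≤ Nat.card F ^ M * X.index := by
    calc Nat.card F ^ M * (Nat.card F ^ (M + 1) * (Nat.card F ^ (M * (M + 1) / 2) * c))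
        = Nat.card Q * (Nat.card F ^ (M * (M + 1) / 2) * c) := by rw [hQc]; ring
      _ ≤ Nat.card (X ⊓ Q : Subgroup (Sp (HB B) × Γ)) * X.index := key
      _ ≤ _ := Nat.mul_le_mul_right _ hXQ
  have h6 := Nat.le_of_mul_le_mul_left h5 (pow_pos hq M)
  have h7 : (M + 1) * (M + 1 + 1) / 2 = (M + 1) + M * (M + 1) / 2 := by
    have h8 : (M + 1) * (M + 1 + 1) = 2 * (M + 1) + M * (M + 1) := by ring
    rw [h8, Nat.mul_add_div (by norm_num)]
  rw [h7, pow_add, mul_assoc]
  exact h6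

/-- the step -/
theorem phi_step [Finite F] [FiniteDimensional F W] (hB : B.IsAlt) (hnd : ND B) (h2 : (2 : F) ≠ 0) {M : ℕ}
    (hM : finrank F W = 2 * M) (hP : PHI B M) : PHI (HB B) (M + 1) := by
  intro Γ _ _ Z' hZ2 hZc c hc X hX1 hX2
  by_cases hZe : ∀ a, (qe hB a 0, (1 : Γ)) ∈ X → a = 0
  · exact phi_step' hB hnd h2 hM hP Γ Z' hZ2 hZc c hc X hX1 hX2 hZe
  push Not at hZe
  obtain ⟨a, ha, ha0⟩ := hZe
  -- the Weyl element
  let w : Matrix.SpecialLinearGroup (Fin 2) F := ⟨!![0, 1; -1, 0], by simp [Matrix.det_fin_two]⟩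
  let g : Sp (HB B) × Γ := (slH w, 1)
  let X' : Subgroup (Sp (HB B) × Γ) := X.comap (MulAut.conj g).toMonoidHom
  have hi : X'.index = X.index :=
    Subgroup.index_comap_of_surjective X (f := (MulAut.conj g).toMonoidHom) (MulAut.conj g).surjective
  rw [← hi]
  refine phi_step' hB hnd h2 hM hP Γ Z' hZ2 hZc c hc X' ?_ ?_ ?_
  · intro z hz hzX
    have h3 : g * (z, (1 : Γ)) * g⁻¹ ∈ X := hzX
    have h4 : g * (z, (1 : Γ)) * g⁻¹ = (slH w * z * (slH w)⁻¹, (1 : Γ)) := by
      refine Prod.ext rfl ?_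
      show (1 : Γ) * 1 * 1⁻¹ = 1
      group
    rw [h4] at h3
    exact hX1 _ (hz.conj _) h3
  · intro z hz hzX
    have h3 : g * ((1 : Sp (HB B)), z) * g⁻¹ ∈ X := hzX
    have h4 : g * ((1 : Sp (HB B)), z) * g⁻¹ = ((1 : Sp (HB B)), z) := by
      refine Prod.ext ?_ ?_
      · show slH w * 1 * (slH w)⁻¹ = 1
        group
      · show (1 : Γ) * z * 1⁻¹ = z
        group
    rw [h4] at h3
    exact hX2 _ hz h3
  · intro b hb
    by_contra hb0
    have h3 : g * (qe hB b 0, (1 : Γ)) * g⁻¹ ∈ X := hb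
    refine hX1 _ (fund_slH (B := B)) ?_
    let ι : Matrix.SpecialLinearGroup (Fin 2) F →* Sp (HB B) × Γ :=
      (MonoidHom.inl (Sp (HB B)) Γ).comp (slH (B := B))
    have h4 := lr_sl2 h2 ha0 (neg_ne_zero.2 hb0) (X.comap ι) (by
      intro l hl
      show (slH l, (1 : Γ)) ∈ X
      have h5 : g * (qe hB b 0, (1 : Γ)) * g⁻¹ = (slH l, (1 : Γ)) := by
        refine Prod.ext ?_ ?_
        · show slH w * qe hB b 0 * (slH w)⁻¹ = slH l
          let u : Matrix.SpecialLinearGroup (Fin 2) F := ⟨!![1, b; 0, 1], by simp [Matrix.det_fin_two]⟩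
          rw [← slH_u hB b u rfl, mul_inv_eq_iff_eq_mul, ← map_mul, ← map_mul]
          congr 1
          apply Subtype.ext
          show !![0, 1; -1, 0] * !![1, b; 0, 1] = l.1 * !![0, 1; -1, 0]
          rw [hl]
          ext i j
          fin_cases i <;> fin_cases j <;> simp
        · show (1 : Γ) * 1 * 1⁻¹ = 1
          group
      rw [← h5]
      exact h3) (by
      intro u hu
      show (slH u, (1 : Γ)) ∈ X
      rw [slH_u hB a u hu]
      exact ha)
    exact h4

end Step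

section Split

variable {V : Type*} [AddCommGroup V] [Module F V] {B : LinearMap.BilinForm F V}

/-- the space perpendicular to `e`, `f` -/
def perp2 (B : LinearMap.BilinForm F V) (e f : V) : Submodule F V :=
  LinearMap.ker (B.flip e) ⊓ LinearMap.ker (B.flip f)

theorem mem_perp2 {e f x : V} : x ∈ perp2 B e f ↔ B x e = 0 ∧ B x f = 0 := Iff.rfl

/-- the form on `perp2` -/
abbrev B2 (B : LinearMap.BilinForm F V) (e f : V) : LinearMap.BilinForm F (perp2 B e f) := B.restrict (perp2 B e f)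

theorem B2_apply {e f : V} (x y : perp2 B e f) : B2 B e f x y = B x.1 y.1 := rfl

theorem B2_alt (hB : B.IsAlt) (e f : V) : (B2 B e f).IsAlt := fun x => hB x.1

/-- the splitting -/
def split2 (hB : B.IsAlt) {e f : V} (hef : B e f = 1) : V ≃ₗ[F] F × F × perp2 B e f where
  toFun x := (B x f, B e x, ⟨x - B x f • e - B e x • f, by
    have hee : B e e = 0 := hB e
    have hff : B f f = 0 := hB f
    have hfe : B f e = -1 := by rw [alt_neg hB, hef]
    rw [mem_perp2]
    simp only [map_sub, map_smul, LinearMap.sub_apply, LinearMap.smul_apply, smul_eq_mul, hee, hff, hfe, hef]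
    rw [alt_neg hB x e]
    constructor <;> ring⟩)
  map_add' x y := by
    refine Prod.ext ?_ (Prod.ext ?_ (Subtype.ext ?_))
    · show B (x + y) f = B x f + B y f
      rw [map_add, LinearMap.add_apply]
    · show B e (x + y) = B e x + B e y
      rw [map_add]
    · show x + y - B (x + y) f • e - B e (x + y) • f = x - B x f • e - B e x • f + (y - B y f • e - B e y • f)
      rw [map_add, map_add, LinearMap.add_apply]
      module
  map_smul' c x := by
    refine Prod.ext ?_ (Prod.ext ?_ (Subtype.ext ?_))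
    · show B (c • x) f = c * B x f
      rw [map_smul, LinearMap.smul_apply, smul_eq_mul]
    · show B e (c • x) = c * B e x
      rw [map_smul, smul_eq_mul]
    · show c • x - B (c • x) f • e - B e (c • x) • f = c • (x - B x f • e - B e x • f)
      rw [map_smul, map_smul, LinearMap.smul_apply, smul_eq_mul, smul_eq_mul]
      module
  invFun y := y.1 • e + y.2.1 • f + y.2.2.1
  left_inv x := by
    show B x f • e + B e x • f + (x - B x f • e - B e x • f) = x
    abel
  right_inv y := by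
    have hee : B e e = 0 := hB e
    have hff : B f f = 0 := hB f
    have hfe : B f e = -1 := by rw [alt_neg hB, hef]
    obtain ⟨h1, h2⟩ := mem_perp2.1 y.2.2.2
    have h1' : B e y.2.2.1 = 0 := by rw [alt_neg hB, h1, neg_zero]
    have e1 : B (y.1 • e + y.2.1 • f + y.2.2.1) f = y.1 := by
      simp only [map_add, map_smul, LinearMap.add_apply, LinearMap.smul_apply, smul_eq_mul, hff, hef, h2]
      ring
    have e2 : B e (y.1 • e + y.2.1 • f + y.2.2.1) = y.2.1 := by
      simp only [map_add, map_smul, smul_eq_mul, hee, hef, h1']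
      ring
    refine Prod.ext e1 (Prod.ext e2 (Subtype.ext ?_))
    show y.1 • e + y.2.1 • f + y.2.2.1 - B (y.1 • e + y.2.1 • f + y.2.2.1) f • e -
      B e (y.1 • e + y.2.1 • f + y.2.2.1) • f = y.2.2.1
    rw [e1, e2]
    abel

theorem split2_symm_apply (hB : B.IsAlt) {e f : V} (hef : B e f = 1) (y : F × F × perp2 B e f) :
    (split2 hB hef).symm y = y.1 • e + y.2.1 • f + y.2.2.1 := rfl

theorem split2_iso (hB : B.IsAlt) {e f : V} (hef : B e f = 1) : IsoF B (HB (B2 B e f)) (split2 hB hef) := by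
  suffices h : IsoF (HB (B2 B e f)) B (split2 hB hef).symm from h.symm
  intro y z
  have hee : B e e = 0 := hB e
  have hff : B f f = 0 := hB f
  have hfe : B f e = -1 := by rw [alt_neg hB, hef]
  obtain ⟨h1, h2⟩ := mem_perp2.1 y.2.2.2
  obtain ⟨h3, h4⟩ := mem_perp2.1 z.2.2.2
  have h3' : B e z.2.2.1 = 0 := by rw [alt_neg hB, h3, neg_zero]
  have h4' : B f z.2.2.1 = 0 := by rw [alt_neg hB, h4, neg_zero]
  rw [split2_symm_apply, split2_symm_apply, HB_apply, B2_apply]
  simp only [map_add, map_smul, LinearMap.add_apply, LinearMap.smul_apply, smul_eq_mul, hee, hff, hef, hfe, h1, h2,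
    h3', h4']
  ring

theorem B2_nd (hB : B.IsAlt) (hnd : ND B) {e f : V} (hef : B e f = 1) : ND (B2 B e f) := by
  intro x hx
  apply Subtype.ext
  show x.1 = 0
  apply hnd
  intro v
  obtain ⟨y, rfl⟩ := (split2 hB hef).symm.surjective v
  obtain ⟨h1, h2⟩ := mem_perp2.1 x.2
  rw [split2_symm_apply, map_add, map_add, map_smul, map_smul, h1, h2, smul_zero, smul_zero, zero_add, zero_add]
  exact hx y.2.2

theorem finrank_perp2 [FiniteDimensional F V] (hB : B.IsAlt) {e f : V} (hef : B e f = 1) :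
    finrank F (perp2 B e f) + 2 = finrank F V := by
  rw [LinearEquiv.finrank_eq (split2 hB hef), Module.finrank_prod, Module.finrank_prod, Module.finrank_self]
  ring

theorem exists_pair (hnd : ND B) {e : V} (he : e ≠ 0) : ∃ f, B e f = 1 := by
  by_contra hcon
  push Not at hcon
  apply he
  apply hnd
  intro y
  by_contra hy
  exact hcon ((B e y)⁻¹ • y) (by rw [map_smul, smul_eq_mul, inv_mul_cancel₀ hy])

end Split

/-- **PHI for symplectic groups in odd characteristic.** -/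
theorem phi_sp [Finite F] (h2 : (2 : F) ≠ 0) (M : ℕ) : ∀ {V : Type*} [AddCommGroup V] [Module F V]
    [FiniteDimensional F V] {B : LinearMap.BilinForm F V}, B.IsAlt → ND B → finrank F V = 2 * M → PHI B M := by
  induction M with
  | zero =>
    intro V _ _ _ B hB hnd hM Γ _ _ Z' hZ2 hZc c hc X hX1 hX2
    have : Finite V := Module.finite_of_finite F
    have hfin : Finite (Sp B) := finite_Sp B
    have : Subsingleton V := finrank_zero_iff.1 (by simpa using hM)
    have hs : Subsingleton (Sp B) := ⟨fun g h => Sp.ext fun x => Subsingleton.elim _ _⟩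
    rw [zero_mul, Nat.zero_div, pow_zero, one_mul]
    have h3 := hc (X.comap (MonoidHom.inr (Sp B) Γ)) (fun z hz hzX => hX2 z hz hzX)
    have h4 : Function.Surjective (MonoidHom.inr (Sp B) Γ) := by
      rintro ⟨g, γ⟩
      exact ⟨γ, Prod.ext (Subsingleton.elim _ _) rfl⟩
    rwa [Subgroup.index_comap_of_surjective X h4] at h3
  | succ M ih =>
    intro V _ _ _ B hB hnd hM
    have hnt : Nontrivial V := Module.nontrivial_of_finrank_pos (R := F) (by omega)
    obtain ⟨e, he⟩ := exists_ne (0 : V)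
    obtain ⟨f, hef⟩ := exists_pair hnd he
    have h3 := finrank_perp2 hB hef
    have h4 : finrank F (perp2 B e f) = 2 * M := by omega
    exact PHI.congr (split2_iso hB hef) (phi_step (B2_alt hB e f) (B2_nd hB hnd hef) h2 h4
      (ih (B2_alt hB e f) (B2_nd hB hnd hef) h4))

/-- PHI without the second factor -/
theorem phi_one [Finite F] (h2 : (2 : F) ≠ 0) {M : ℕ} {V : Type*} [AddCommGroup V] [Module F V]
    [FiniteDimensional F V] {B : LinearMap.BilinForm F V} (hB : B.IsAlt) (hnd : ND B) (hM : finrank F V = 2 * M)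
    (X : Subgroup (Sp B)) (hX : ∀ z : Sp B, Fund B z → z ∉ X) : Nat.card F ^ (M * (M + 1) / 2) ≤ X.index := by
  have h3 := phi_sp h2 M hB hnd hM Unit (∅ : Set Unit) (by simp) (by simp) 1 (fun Y _ => by
    exact Nat.pos_of_ne_zero Subgroup.index_ne_zero_of_finite) (X.comap (MonoidHom.fst (Sp B) Unit))
    (fun z hz hzX => hX z hz hzX) (by simp)
  rwa [mul_one, Subgroup.index_comap_of_surjective X (fun g => ⟨(g, ()), rfl⟩)] at h3

/-- **PROD**: two factors. -/
theorem phi_prod [Finite F] (h2 : (2 : F) ≠ 0) {k l : ℕ} {V₁ : Type*} [AddCommGroup V₁] [Module F V₁]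
    [FiniteDimensional F V₁] {B₁ : LinearMap.BilinForm F V₁} (hB₁ : B₁.IsAlt) (hnd₁ : ND B₁) (hk : finrank F V₁ = 2 * k)
    {V₂ : Type} [AddCommGroup V₂] [Module F V₂]
    [FiniteDimensional F V₂] {B₂ : LinearMap.BilinForm F V₂} (hB₂ : B₂.IsAlt) (hnd₂ : ND B₂) (hl : finrank F V₂ = 2 * l)
    (X : Subgroup (Sp B₁ × Sp B₂)) (hX1 : ∀ z : Sp B₁, Fund B₁ z → (z, (1 : Sp B₂)) ∉ X)
    (hX2 : ∀ z : Sp B₂, Fund B₂ z → ((1 : Sp B₁), z) ∉ X) :
    Nat.card F ^ (k * (k + 1) / 2 + l * (l + 1) / 2) ≤ X.index := by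
  have hfin : Finite (Sp B₂) := finite_Sp B₂
  rw [pow_add]
  exact phi_sp h2 k hB₁ hnd₁ hk (Sp B₂) {z | Fund B₂ z} (fun z hz => Fund.sq hB₂ hz) (fun g z hz => Fund.conj hz g)
    _ (fun Y hY => phi_one h2 hB₂ hnd₂ hl Y (fun z hz hzY => hY z hz hzY)) X hX1 hX2

end Cfsg.Agent.H17.IFSp
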